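import Cfsg.Agent.CITThreePrime.Classify

/-!
The simple normal subgroup of a non-solvable group with 2-group involution centralisers and trivial
`O₂`, and the fixed points of elements of order prime to it on its Sylow 2-subgroups.
-/

set_option autoImplicit false

namespace CfsgLib.PrimeGraphPSLTwo

open CfsgLib.CITThreePrime
open scoped commutatorElement

universe u

variable {G : Type u} [Group G] [Finite G]

theorem eq_bot_of_isSolvable (h : InvCentTwo G)
    (hFT : ∀ H : Subgroup G, Odd (Nat.card H) → Group.IsSolvable H)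
    (hO : Cfsg.pCore 2 G = ⊥) (hns : ¬ Group.IsSolvable G)
    (N : Subgroup G) [N.Normal] (hN : Group.IsSolvable N) : N = ⊥ := by
  by_contra hN1
  obtain ⟨E, hEn, hE1, hEo, hEc⟩ := exists_abelian_odd_normal hO inferInstance hN hN1
  exact hns (h.isSolvable_of_normal hFT hEc hEo hE1 hEn)

theorem exists_involution_of_not_isSolvable
    (hFT : ∀ H : Subgroup G, Odd (Nat.card H) → Group.IsSolvable H)
    {M : Subgroup G} (hM : ¬ Group.IsSolvable M) : ∃ z ∈ M, orderOf z = 2 := by
  haveI : Fact (Nat.Prime 2) := ⟨Nat.prime_two⟩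
  obtain ⟨z, hz⟩ := exists_prime_orderOf_dvd_card' (G := M) 2
    (even_iff_two_dvd.1 (Nat.not_odd_iff_even.1 fun ho => hM (hFT M ho)))
  exact ⟨z, z.2, by rw [Subgroup.orderOf_coe, hz]⟩

/-- A subgroup inside the centraliser of an involution is solvable. -/
theorem isSolvable_of_le_centralizer (h : InvCentTwo G) {M : Subgroup G} {z : G} (hz : orderOf z = 2)
    (hM : M ≤ Subgroup.centralizer ({z} : Set G)) : Group.IsSolvable M := by
  haveI : Fact (Nat.Prime 2) := ⟨Nat.prime_two⟩
  haveI := ((h z hz).to_le hM).isNilpotent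
  infer_instance

/-- The socle is simple, non-abelian, with trivial centraliser. -/
theorem exists_simple_normal (h : InvCentTwo G)
    (hFT : ∀ H : Subgroup G, Odd (Nat.card H) → Group.IsSolvable H)
    (hO : Cfsg.pCore 2 G = ⊥) (hns : ¬ Group.IsSolvable G) :
    ∃ N : Subgroup G, N.Normal ∧ IsSimpleGroup N ∧ (∃ a b : N, a * b ≠ b * a) ∧
      Subgroup.centralizer (N : Set G) = ⊥ := by
  classical
  haveI : Fact (Nat.Prime 2) := ⟨Nat.prime_two⟩
  have hG1 : (⊤ : Subgroup G) ≠ ⊥ := fun e => hns (by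
    haveI : Subsingleton G := ⟨fun a b =>
      (Subgroup.mem_bot.1 (e ▸ Subgroup.mem_top a)).trans
        (Subgroup.mem_bot.1 (e ▸ Subgroup.mem_top b)).symm⟩
    infer_instance)
  obtain ⟨N, ⟨hN1, hNn⟩, hNmin⟩ := Set.exists_min_image {N : Subgroup G | N ≠ ⊥ ∧ N.Normal}
    (fun N => Nat.card N) (Set.toFinite _) ⟨⊤, hG1, inferInstance⟩
  haveI := hNn
  obtain ⟨M, ⟨hM1, hMN, hMn⟩, hMmin⟩ := Set.exists_min_image
    {M : Subgroup G | M ≠ ⊥ ∧ M ≤ N ∧ N ≤ Subgroup.normalizer (M : Set G)}
    (fun M => Nat.card M) (Set.toFinite _) ⟨N, hN1, le_rfl, Subgroup.le_normalizer⟩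
  set cj : G → Subgroup G := fun g => M.map (MulAut.conj g).toMonoidHom with hcj
  have hcN : ∀ g, cj g ≤ N := fun g => by
    rintro _ ⟨y, hy, rfl⟩
    exact hNn.conj_mem y (hMN hy) g
  have hcn : ∀ g, N ≤ Subgroup.normalizer (cj g : Set G) := fun g n hn => by
    have h2 := hMn (show g⁻¹ * n * g ∈ N by simpa using hNn.conj_mem n hn g⁻¹)
    rw [Subgroup.mem_normalizer_iff_map_conj_eq] at h2 ⊢
    simp only [hcj]
    conv_rhs => rw [← h2]
    rw [Subgroup.map_map, Subgroup.map_map]
    congr 1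
    ext y
    simp [mul_assoc]
  -- two conjugates are equal or commute elementwise
  have hcomm : ∀ g g', cj g = cj g' ∨ ∀ a ∈ cj g, ∀ b ∈ cj g', a * b = b * a := by
    intro g g'
    by_cases hI : cj g ⊓ cj g' = ⊥
    · refine Or.inr fun a ha b hb => ?_
      have h1 : a * b * a⁻¹ * b⁻¹ ∈ cj g ⊓ cj g' := by
        refine ⟨?_, (cj g').mul_mem ((Subgroup.mem_normalizer_iff.1 (hcn g' (hcN g ha)) b).1 hb)
          ((cj g').inv_mem hb)⟩
        have := (cj g).mul_mem ha
          ((Subgroup.mem_normalizer_iff.1 (hcn g (hcN g' hb)) a⁻¹).1 ((cj g).inv_mem ha))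
        simpa [mul_assoc] using this
      rw [hI, Subgroup.mem_bot, mul_inv_eq_one, mul_inv_eq_iff_eq_mul] at h1
      exact h1
    · left
      have hcard : ∀ k, Nat.card (cj k) = Nat.card M := fun k =>
        Subgroup.card_map_of_injective (MulAut.conj k).injective
      have hle := hMmin _ ⟨hI, inf_le_left.trans (hcN g), fun n hn => by
        rw [Subgroup.mem_normalizer_iff]
        exact fun y => ⟨fun hy => ⟨(Subgroup.mem_normalizer_iff.1 (hcn g hn) y).1 hy.1,
            (Subgroup.mem_normalizer_iff.1 (hcn g' hn) y).1 hy.2⟩,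
          fun hy => ⟨(Subgroup.mem_normalizer_iff.1 (hcn g hn) y).2 hy.1,
            (Subgroup.mem_normalizer_iff.1 (hcn g' hn) y).2 hy.2⟩⟩⟩
      have e1 := Subgroup.eq_of_le_of_card_ge (inf_le_left : cj g ⊓ cj g' ≤ cj g)
        (by rw [hcard]; exact hle)
      have e2 := Subgroup.eq_of_le_of_card_ge (inf_le_right : cj g ⊓ cj g' ≤ cj g')
        (by rw [hcard]; exact hle)
      exact e1.symm.trans e2
  have hone : cj 1 = M := by
    ext y; simp [hcj]
  have hMns : ¬ Group.IsSolvable M := by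
    intro hs
    -- a solvable `M` is abelian
    haveI := hs
    haveI : Nontrivial M := (Subgroup.nontrivial_iff_ne_bot M).2 hM1
    have hlt : commutator M < ⊤ := IsSolvable.commutator_lt_top_of_nontrivial M
    set C := (commutator M).map M.subtype with hC
    have hCM : C ≤ M := Subgroup.map_subtype_le _
    have hC' : C = ⁅M, M⁆ := by
      rw [hC, commutator_def, Subgroup.map_commutator, ← MonoidHom.range_eq_map,
        Subgroup.range_subtype]
    have hCn : N ≤ Subgroup.normalizer (C : Set G) := fun n hn => by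
      rw [Subgroup.mem_normalizer_iff_map_conj_eq, hC', Subgroup.map_commutator,
        (Subgroup.mem_normalizer_iff_map_conj_eq).1 (hMn hn)]
    have hC1 : C = ⊥ := by
      by_contra hne
      refine hlt.ne (Subgroup.eq_top_of_le_card _ ?_)
      have := hMmin C ⟨hne, hCM.trans hMN, hCn⟩
      rwa [hC, Subgroup.card_map_of_injective Subtype.val_injective] at this
    have habM : ∀ a ∈ M, ∀ b ∈ M, a * b = b * a := fun a ha b hb => by
      have h1 : ⁅a, b⁆ ∈ C := hC' ▸ Subgroup.commutator_mem_commutator ha hb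
      rw [hC1, Subgroup.mem_bot] at h1
      exact commutatorElement_eq_one_iff_mul_comm.1 h1
    -- so the join of the conjugates is abelian and normal
    let A := Subgroup.closure {y : G | ∃ g, y ∈ cj g}
    have hpair : ∀ x ∈ {y : G | ∃ g, y ∈ cj g}, ∀ y ∈ {y : G | ∃ g, y ∈ cj g}, x * y = y * x := by
      rintro x ⟨g, hx⟩ y ⟨g', hy⟩
      rcases hcomm g g' with e | e
      · rw [← e] at hy
        obtain ⟨a, ha, rfl⟩ := hx
        obtain ⟨b, hb, rfl⟩ := hy
        rw [← map_mul, ← map_mul, habM a ha b hb]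
      · exact e x hx y hy
    haveI hA : IsMulCommutative A := Subgroup.isMulCommutative_closure hpair
    haveI hAn : A.Normal := by
      refine ⟨fun x hx k => ?_⟩
      have hle : A.map (MulAut.conj k).toMonoidHom ≤ A := by
        rw [MonoidHom.map_closure, Subgroup.closure_le]
        rintro _ ⟨y, ⟨g, b, hb, rfl⟩, rfl⟩
        exact Subgroup.subset_closure ⟨k * g, b, hb, by simp [mul_assoc]⟩
      exact hle ⟨x, hx, rfl⟩
    haveI : Group.IsSolvable A := isSolvable_of_comm fun a b => hA.is_comm.comm a b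
    have hA1 := eq_bot_of_isSolvable h hFT hO hns A inferInstance
    refine hM1 (eq_bot_iff.2 fun y hy => ?_)
    rw [← hA1]
    exact Subgroup.subset_closure ⟨1, hone.symm ▸ hy⟩
  obtain ⟨z, hzM, hz⟩ := exists_involution_of_not_isSolvable hFT hMns
  have hfix : ∀ g, cj g = M := by
    intro g
    rcases hcomm g 1 with e | e
    · exact e.trans hone
    · exfalso
      have hle : cj g ≤ Subgroup.centralizer ({z} : Set G) := fun a ha =>
        Subgroup.mem_centralizer_singleton_iff.2 (e a ha z (hone.symm ▸ hzM))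
      haveI := isSolvable_of_le_centralizer h hz hle
      exact hMns (Group.isSolvable_of_surjective
        (f := ((M.equivMapOfInjective (MulAut.conj g).toMonoidHom (MulAut.conj g).injective).symm
          : cj g →* M)) (MulEquiv.surjective _))
  haveI hMnG : M.Normal := ⟨fun y hy g => hfix g ▸ ⟨y, hy, rfl⟩⟩
  have hNM : N = M := (Subgroup.eq_of_le_of_card_ge hMN (hNmin M ⟨hM1, hMnG⟩)).symm
  subst hNM
  have hNns : ¬ Group.IsSolvable N := hMns
  haveI : Nontrivial N := (Subgroup.nontrivial_iff_ne_bot N).2 hN1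
  refine ⟨N, hNn, ⟨fun L hL => ?_⟩, ?_, ?_⟩
  · refine or_iff_not_imp_left.2 fun hL1 => ?_
    have hmem : L.map N.subtype ∈
        {M : Subgroup G | M ≠ ⊥ ∧ M ≤ N ∧ N ≤ Subgroup.normalizer (M : Set G)} :=
      ⟨fun e => hL1 ((Subgroup.map_eq_bot_iff_of_injective _ Subtype.val_injective).1 e),
        Subgroup.map_subtype_le _, fun n hn => by
          rw [Subgroup.mem_normalizer_iff]
          refine fun y => ⟨?_, fun hy => ?_⟩
          · rintro ⟨w, hw, rfl⟩
            exact ⟨_, hL.conj_mem w hw ⟨n, hn⟩, rfl⟩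
          · obtain ⟨w, hw, hwe⟩ := hy
            refine ⟨_, hL.conj_mem w hw ⟨n, hn⟩⁻¹, ?_⟩
            show (n⁻¹ * (w : G) * n⁻¹⁻¹) = y
            rw [show (w : G) = n * y * n⁻¹ from hwe]
            group⟩
    have := hMmin _ hmem
    rw [Subgroup.card_map_of_injective Subtype.val_injective] at this
    exact Subgroup.eq_top_of_le_card _ this
  · by_contra hab
    push Not at hab
    exact hNns (isSolvable_of_comm hab)
  · obtain ⟨z, hzN, hz⟩ := exists_involution_of_not_isSolvable hFT hNns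
    refine eq_bot_of_isSolvable h hFT hO hns _ (isSolvable_of_le_centralizer h hz fun c hc => ?_)
    exact Subgroup.mem_centralizer_singleton_iff.2 (Subgroup.mem_centralizer_iff.1 hc z hzN).symm

/-- A prime dividing the order of the group but not of a normal subgroup `N` divides `2^e - 1` for
the order `2^e` of an elementary abelian 2-subgroup of `N`. -/
theorem exists_dvd_two_pow_sub_one (h : InvCentTwo G) (N : Subgroup G) [N.Normal]
    (h2 : 2 ∣ Nat.card N) {r : ℕ} (hr : r.Prime) (hr2 : r ≠ 2) (hd : r ∣ Nat.card G)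
    (hN : ¬ r ∣ Nat.card N) :
    ∃ e, 1 ≤ e ∧ 2 ^ e ∣ Nat.card N ∧ r ∣ 2 ^ e - 1 := by
  classical
  haveI : Fact r.Prime := ⟨hr⟩
  haveI : Fact (Nat.Prime 2) := ⟨Nat.prime_two⟩
  obtain ⟨x, hx⟩ := exists_prime_orderOf_dvd_card' (G := G) r hd
  let X := Subgroup.zpowers x
  let φ : X →* MulAut N := (MulAut.conjNormal : G →* MulAut N).comp X.subtype
  letI : MulDistribMulAction X N := MulDistribMulAction.compHom N φ
  obtain ⟨P₀⟩ : Nonempty (Sylow 2 N) := inferInstance
  have hXp : IsPGroup r X := IsPGroup.of_card (n := 1) (by rw [Nat.card_zpowers, hx, pow_one])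
  have hcount : ¬ r ∣ Nat.card (Sylow 2 N) := fun hdd =>
    hN (hdd.trans (P₀.card_dvd_index.trans (Subgroup.index_dvd_card _)))
  obtain ⟨P, hP⟩ := hXp.nonempty_fixed_point_of_prime_not_dvd_card (Sylow 2 N) hcount
  set S := (P : Subgroup N).map N.subtype with hS
  have hxS : x ∈ Subgroup.normalizer (S : Set G) := by
    have h1 := congrArg (fun Q : Sylow 2 N => (Q : Subgroup N))
      (hP ⟨x, Subgroup.mem_zpowers x⟩)
    rw [Subgroup.mem_normalizer_iff_map_conj_eq]
    have h1' : (P : Subgroup N).map (φ ⟨x, Subgroup.mem_zpowers x⟩ : N ≃* N).toMonoidHom =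
        (P : Subgroup N) := h1
    conv_rhs => rw [hS, ← h1']
    rw [hS, Subgroup.map_map, Subgroup.map_map]
    congr 1
  set H := Subgroup.normalizer (S : Set G)
  set Q := S.subgroupOf H
  have hSH : S ≤ H := Subgroup.le_normalizer
  haveI hQn : Q.Normal := Subgroup.normal_in_normalizer
  have hSp : IsPGroup 2 S := P.2.map _
  have hQp : IsPGroup 2 Q := hSp.of_equiv (Subgroup.subgroupOfEquivOfLe hSH).symm
  have hQcard : Nat.card Q = Nat.card (P : Subgroup N) := by
    rw [Nat.card_congr (Subgroup.subgroupOfEquivOfLe hSH).toEquiv,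
      Subgroup.card_map_of_injective Subtype.val_injective]
  have hQ1 : Q ≠ ⊥ := fun e => by
    have h3 : 2 ∣ Nat.card Q := hQcard ▸ P.dvd_card_of_dvd_card h2
    rw [e, Subgroup.card_bot] at h3
    omega
  have hH : InvCentTwo H := h.of_injective H.subtype Subtype.val_injective
  obtain ⟨e, he⟩ := IsPGroup.iff_card.1 (hQp.to_le (fun z hz => (mem_omegaZ.1 hz).1) :
    IsPGroup 2 (omegaZ Q))
  have hgt : 1 < Nat.card (omegaZ Q) :=
    (Subgroup.one_lt_card_iff_ne_bot _).2 (omegaZ_ne_bot hQp hQ1)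
  refine ⟨e, ?_, ?_, ?_⟩
  · by_contra hlt
    obtain rfl : e = 0 := by omega
    omega
  · rw [← he]
    exact (Subgroup.card_dvd_of_le (fun z hz => (mem_omegaZ.1 hz).1 : omegaZ Q ≤ Q)).trans
      (hQcard ▸ Subgroup.card_subgroup_dvd_card _)
  · rw [← he]
    have hrH : r ∣ Nat.card H := by
      have : orderOf (⟨x, hxS⟩ : H) = r := by rw [Subgroup.orderOf_mk, hx]
      exact this ▸ orderOf_dvd_natCard _
    simpa using hH.pow_dvd_card_sub_one (omegaZ Q) (fun z hz => (mem_omegaZ.1 hz).2.2) hr hr2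
      (k := 1) (by simpa using hrH)

end CfsgLib.PrimeGraphPSLTwo
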