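import Cfsg.Agent.PrimeGraphPSLTwo.Model
import Cfsg.Agent.PrimeGraphPSLTwo.Socle
import Cfsg.Agent.PrimeGraphPSLTwo.AutTwo
import Cfsg.Agent.CITThreePrime.PrimeGraph
import Cfsg.Agent.PrimeGraph.ThreePrimes
import Cfsg.Agent.PSL34.Recognise
import Cfsg.Agent.Dickson.PSL

/-!
The prime graph of `PSL₂(2^m)`, `m ≥ 4`, determines the group modulo `O₂`, given the list of simple
groups with 2-group involution centralisers.
-/

set_option autoImplicit false

namespace CfsgLib.PrimeGraphPSLTwo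

open CfsgLib.CITThreePrime CfsgLib.Zsigmondy

universe v

/-- The list of non-abelian simple groups with 2-group involution centralisers. -/
def SimpleCITList : Prop :=
  ∀ (N : Type v) [Group N] [Finite N] [IsSimpleGroup N], (∃ a b : N, a * b ≠ b * a) →
    (∀ t : N, orderOf t = 2 → IsPGroup 2 (Subgroup.centralizer ({t} : Set N))) →
    (∃ (F : Type) (_ : Field F) (_ : Fintype F),
        (Fintype.card F = 9 ∨ (∃ n : ℕ, Fintype.card F = 2 ^ n) ∨
          ((Fintype.card F).Prime ∧ ∃ k : ℕ, Fintype.card F = 2 ^ k + 1 ∨ Fintype.card F + 1 = 2 ^ k)) ∧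
        Nonempty (N ≃* Matrix.ProjectiveSpecialLinearGroup (Fin 2) F)) ∨
    (∃ (F : Type) (_ : Field F) (_ : Fintype F), Fintype.card F = 4 ∧
        Nonempty (N ≃* Matrix.ProjectiveSpecialLinearGroup (Fin 3) F)) ∨
    Cfsg.IsSuzuki N

/-- The data read off the prime graph of `PSL₂(2^m)` for a group with trivial `O₂`. -/
structure Shape (m : ℕ) (K : Type v) [Group K] : Prop where
  cit : InvCentTwo K
  pcore : Cfsg.pCore 2 K = ⊥
  notSolv : ¬ Group.IsSolvable K
  primes : ∀ p : ℕ, p.Prime → p ≠ 2 → (p ∣ Nat.card K ↔ p ∣ 2 ^ (2 * m) - 1)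
  split : ∀ r s : ℕ, r.Prime → s.Prime → r ∣ 2 ^ m - 1 → s ∣ 2 ^ m + 1 → ∀ y : K, orderOf y ≠ r * s

variable {K : Type v} [Group K] [Finite K]

/-- A prime off a normal subgroup and prime to `p - 1` is joined to a prime `p` dividing the normal
subgroup exactly once. -/
theorem exists_orderOf_prime_mul (N : Subgroup K) [N.Normal] {p s : ℕ} (hp : p.Prime) (hs : s.Prime)
    (hpN : p ∣ Nat.card N) (hp2 : ¬ p ^ 2 ∣ Nat.card N) (hsN : ¬ s ∣ Nat.card N)
    (hsK : s ∣ Nat.card K) (hps : ¬ s ∣ p - 1) : ∃ y : K, orderOf y = p * s := by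
  classical
  haveI : Fact p.Prime := ⟨hp⟩
  haveI : Fact s.Prime := ⟨hs⟩
  have hne : p ≠ s := fun e => hsN (e ▸ hpN)
  obtain ⟨P⟩ : Nonempty (Sylow p N) := inferInstance
  have hPc : Nat.card (P : Subgroup N) = p := by
    obtain ⟨k, hk⟩ := IsPGroup.iff_card.1 P.2
    have h1 : p ∣ p ^ k := hk ▸ P.dvd_card_of_dvd_card hpN
    have h2 : p ^ k ∣ Nat.card N := hk ▸ Subgroup.card_subgroup_dvd_card _
    rcases k with _ | _ | k
    · rw [pow_zero, Nat.dvd_one] at h1; exact absurd h1 hp.ne_one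
    · rw [hk, pow_one]
    · exact absurd ((pow_dvd_pow p (by omega)).trans h2) hp2
  set Q := (P : Subgroup N).map N.subtype with hQ
  have hQc : Nat.card Q = p := by rw [hQ, Subgroup.card_map_of_injective Subtype.val_injective, hPc]
  set H := Subgroup.normalizer (Q : Set K) with hH
  have hidx : N.relIndex H = N.index := by
    rw [← Subgroup.relIndex_top_right N, ← Sylow.normalizer_sup_eq_top P, Subgroup.relIndex_sup_right]
  have hsH : s ∣ Nat.card H := by
    have h1 : s ∣ N.index := by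
      rw [← Subgroup.card_mul_index N] at hsK
      exact (hs.dvd_mul.1 hsK).resolve_left hsN
    exact h1.trans (hidx ▸ Subgroup.index_dvd_card (N.subgroupOf H))
  obtain ⟨x, hx⟩ := exists_prime_orderOf_dvd_card' (G := H) s hsH
  haveI : (Q.subgroupOf H).Normal := Subgroup.normal_in_normalizer
  have hQH : Nat.card (Q.subgroupOf H) = p :=
    (Nat.card_congr (Subgroup.subgroupOfEquivOfLe Subgroup.le_normalizer).toEquiv).trans hQc
  haveI : IsCyclic (Q.subgroupOf H) := isCyclic_of_prime_card hQH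
  have h1 : orderOf (MulAut.conjNormal (H := Q.subgroupOf H) x) = 1 := by
    refine Nat.eq_one_of_dvd_coprimes ((hs.coprime_iff_not_dvd).2 hps)
      (hx ▸ orderOf_map_dvd _ x) ?_
    refine (orderOf_dvd_natCard _).trans (dvd_of_eq ?_)
    rw [IsCyclic.card_mulAut, hQH, Nat.totient_prime hp]
  obtain ⟨y, hy⟩ := exists_prime_orderOf_dvd_card' (G := Q.subgroupOf H) p (dvd_of_eq hQH.symm)
  have hcomm : Commute x (y : H) := by
    have h2 := congrArg (fun f : MulAut (Q.subgroupOf H) => ((f y : Q.subgroupOf H) : H))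
      (orderOf_eq_one_iff.1 h1)
    simp only [MulAut.conjNormal_apply, MulAut.one_apply] at h2
    exact mul_inv_eq_iff_eq_mul.1 h2
  refine ⟨(((y : H) * x : H) : K), ?_⟩
  rw [Subgroup.orderOf_coe, hcomm.symm.orderOf_mul_eq_mul_orderOf_of_coprime
    (by rw [Subgroup.orderOf_coe, hy, hx]; exact (Nat.coprime_primes hp hs).2 hne),
    Subgroup.orderOf_coe, hy, hx]

section

variable {m : ℕ} (hsh : Shape m K) (hm : 4 ≤ m) (N : Subgroup K) [N.Normal]
include hsh hm

omit [N.Normal] in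
theorem odd_prime_dvd {p : ℕ} (hp : p.Prime) (hp2 : p ≠ 2) (hd : p ∣ Nat.card N) :
    p ∣ 2 ^ (2 * m) - 1 :=
  (hsh.primes p hp hp2).1 (hd.trans (Subgroup.card_subgroup_dvd_card N))

/-- A primitive prime off `N` bounds the 2-part of `|N|` below. -/
theorem le_of_not_dvd (h2 : 2 ∣ Nat.card N) {r : ℕ} (hr : IsPPD r 2 (2 * m))
    (hN : ¬ r ∣ Nat.card N) : ∃ e, 2 ^ e ∣ Nat.card N ∧ 2 * m ≤ e := by
  obtain ⟨e, he1, he, hre⟩ := exists_dvd_two_pow_sub_one hsh.cit N h2 hr.1
    (ne_two_of_dvd (by omega) hr.2.1)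
    ((hsh.primes r hr.1 (ne_two_of_dvd (by omega) hr.2.1)).2 hr.2.1) hN
  exact ⟨e, he, Nat.le_of_dvd he1 (prim_dvd (by omega) hr hre)⟩

theorem false_of_small {e : ℕ} (he : e < 8) {c : ℕ} (hc : Odd c) (hNc : Nat.card N = 2 ^ e * c)
    (hNe : 1 ≤ e) (hprimes : ∀ p : ℕ, p.Prime → p ∣ c → p < 8) : False := by
  obtain ⟨r, hr⟩ := exists_isPPD_of_three_le (a := 2) (n := 2 * m) le_rfl (by omega) (by omega)
  have hr8 : 8 < r := lt_of_le_of_lt (by omega) (hr.lt (by norm_num) (by omega))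
  by_cases hN : r ∣ Nat.card N
  · rw [hNc] at hN
    rcases hr.1.dvd_mul.1 hN with h | h
    · exact absurd ((Nat.prime_dvd_prime_iff_eq hr.1 Nat.prime_two).1 (hr.1.dvd_of_dvd_pow h))
        (by omega)
    · have := hprimes r hr.1 h; omega
  · obtain ⟨f, hf, hmf⟩ := le_of_not_dvd hsh hm N (hNc ▸ (dvd_pow_self 2 (by omega)).mul_right c) hr hN
    rw [hNc] at hf
    have h1 : 2 ^ f ∣ 2 ^ e :=
      Nat.Coprime.dvd_of_dvd_mul_right (Nat.Coprime.pow_left _ hc.coprime_two_left) hf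
    have := (Nat.pow_dvd_pow_iff_le_right (by norm_num)).1 h1
    omega

theorem false_of_fermat {k : ℕ} (hp : (2 ^ k + 1).Prime) (hk : 2 ≤ k)
    (hNc : Nat.card N = 2 ^ k * ((2 ^ k + 1) * (2 ^ (k - 1) + 1))) : False := by
  obtain ⟨r, hr⟩ := exists_isPPD_of_three_le (a := 2) (n := 2 * m) le_rfl (by omega) (by omega)
  have hodd : Odd ((2 ^ k + 1) * (2 ^ (k - 1) + 1)) :=
    (Nat.even_pow.2 ⟨even_two, by omega⟩).add_one.mul (Nat.even_pow.2 ⟨even_two, by omega⟩).add_one
  have hp2 : 2 ^ k + 1 ≠ 2 := by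
    have : 2 ≤ 2 ^ k := Nat.le_self_pow (by omega) 2
    omega
  have hpN : 2 ^ k + 1 ∣ Nat.card N := hNc ▸ (dvd_mul_right _ _).mul_left _
  have hk2m : 2 * k ∣ 2 * m :=
    two_mul_dvd_of_fermat hp (by omega) rfl (odd_prime_dvd hsh hm N hp hp2 hpN)
  have hN : r ∣ Nat.card N := by
    by_contra hN
    obtain ⟨f, hf, hmf⟩ := le_of_not_dvd hsh hm N (hNc ▸ (dvd_pow_self 2 (by omega)).mul_right _) hr hN
    rw [hNc] at hf
    have h1 : 2 ^ f ∣ 2 ^ k :=
      Nat.Coprime.dvd_of_dvd_mul_right (Nat.Coprime.pow_left _ hodd.coprime_two_left) hf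
    have := (Nat.pow_dvd_pow_iff_le_right (by norm_num)).1 h1
    have := Nat.le_of_dvd (by omega) hk2m
    omega
  have hr2 := ne_two_of_dvd (by omega) hr.2.1
  rw [hNc] at hN
  rcases hr.1.dvd_mul.1 hN with h | h
  · exact hr2 ((Nat.prime_dvd_prime_iff_eq hr.1 Nat.prime_two).1 (hr.1.dvd_of_dvd_pow h))
  rcases hr.1.dvd_mul.1 h with h | h
  · -- `2^k + 1 = 2^m + 1`
    obtain rfl := (Nat.prime_dvd_prime_iff_eq hr.1 hp).1 h
    have h2 : 2 * m ∣ 2 * k := prim_dvd (by omega) hr (dvd_pow_two_mul_sub_one dvd_rfl)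
    obtain rfl : k = m := by have := Nat.dvd_antisymm hk2m h2; omega
    obtain ⟨s, hs⟩ := exists_isPPD_of_three_le (a := 2) (n := k) le_rfl (by omega)
      (fun h6 => by rw [h6.2] at hp; norm_num at hp)
    have hs2 := ne_two_of_dvd (by omega) hs.2.1
    have hsK : s ∣ Nat.card K := (hsh.primes s hs.1 hs2).2 (by
      refine hs.2.1.trans ?_
      rw [mul_comm 2 k, pow_mul]
      simpa using Nat.sub_dvd_pow_sub_pow (2 ^ k) 1 2)
    have hsp : ¬ s ∣ 2 ^ k + 1 := by
      intro hd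
      have h3 := (Nat.prime_dvd_prime_iff_eq hs.1 hp).1 hd
      have := Nat.le_of_dvd (by
        have : 2 ≤ 2 ^ k := Nat.le_self_pow (by omega) 2
        omega) hs.2.1
      have : 1 ≤ 2 ^ k := Nat.one_le_two_pow
      omega
    have hsN : ¬ s ∣ Nat.card N := by
      rw [hNc]
      intro hd
      rcases hs.1.dvd_mul.1 hd with hd | hd
      · exact hs2 ((Nat.prime_dvd_prime_iff_eq hs.1 Nat.prime_two).1 (hs.1.dvd_of_dvd_pow hd))
      rcases hs.1.dvd_mul.1 hd with hd | hd
      · exact hsp hd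
      · have h3 := prim_dvd (by omega) hs (dvd_pow_two_mul_sub_one hd)
        have h4 : k ∣ 2 * k - 2 * (k - 1) := Nat.dvd_sub (dvd_mul_left k 2) h3
        have := Nat.le_of_dvd (by omega) h4
        omega
    obtain ⟨y, hy⟩ := exists_orderOf_prime_mul N hp hs.1 hpN
      (fun hd => by
        rw [hNc, ← mul_assoc, mul_comm (2 ^ k) (2 ^ k + 1), mul_assoc, sq] at hd
        have h3 := Nat.dvd_of_mul_dvd_mul_left hp.pos hd
        rcases hp.dvd_mul.1 h3 with h3 | h3
        · exact hp2 ((Nat.prime_dvd_prime_iff_eq hp Nat.prime_two).1 (hp.dvd_of_dvd_pow h3))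
        · have h4 := Nat.le_of_dvd (Nat.succ_pos _) h3
          have : 2 ^ (k - 1) < 2 ^ k := Nat.pow_lt_pow_right (by norm_num) (by omega)
          omega)
      hsN hsK (fun hd => by
        rw [Nat.add_sub_cancel] at hd
        exact hs2 ((Nat.prime_dvd_prime_iff_eq hs.1 Nat.prime_two).1 (hs.1.dvd_of_dvd_pow hd)))
    exact hsh.split s (2 ^ k + 1) hs.1 hp hs.2.1 dvd_rfl y (by rw [hy, mul_comm])
  · have h2 := hk2m.trans (prim_dvd (by omega) hr (dvd_pow_two_mul_sub_one h))
    have := Nat.le_of_dvd (by omega) h2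
    omega

theorem false_of_mersenne {k : ℕ} (hp : (2 ^ k - 1).Prime) (hk : 3 ≤ k)
    (hNc : Nat.card N = 2 ^ k * ((2 ^ k - 1) * (2 ^ (k - 1) - 1))) : False := by
  obtain ⟨r, hr⟩ := exists_isPPD_of_three_le (a := 2) (n := 2 * m) le_rfl (by omega) (by omega)
  have h8 : 8 ≤ 2 ^ k := (Nat.pow_le_pow_right (by norm_num) hk : 2 ^ 3 ≤ 2 ^ k)
  have hodd : Odd ((2 ^ k - 1) * (2 ^ (k - 1) - 1)) :=
    (Nat.Even.sub_odd Nat.one_le_two_pow (Nat.even_pow.2 ⟨even_two, by omega⟩) odd_one).mul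
      (Nat.Even.sub_odd Nat.one_le_two_pow (Nat.even_pow.2 ⟨even_two, by omega⟩) odd_one)
  have hpN : 2 ^ k - 1 ∣ Nat.card N := hNc ▸ (dvd_mul_right _ _).mul_left _
  have hk2m : k ∣ 2 * m :=
    dvd_of_mersenne hp (by omega) (odd_prime_dvd hsh hm N hp (by omega) hpN)
  have hkodd : ¬ Even k := fun hev => by
    have h3 := (Nat.prime_dvd_prime_iff_eq Nat.prime_three hp).1 (three_dvd_of_even hev)
    omega
  have hkm : k ≠ 2 * m := fun e => hkodd (e ▸ even_two_mul m)
  have hN : r ∣ Nat.card N := by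
    by_contra hN
    obtain ⟨f, hf, hmf⟩ := le_of_not_dvd hsh hm N (hNc ▸ (dvd_pow_self 2 (by omega)).mul_right _) hr hN
    rw [hNc] at hf
    have h1 : 2 ^ f ∣ 2 ^ k :=
      Nat.Coprime.dvd_of_dvd_mul_right (Nat.Coprime.pow_left _ hodd.coprime_two_left) hf
    have := (Nat.pow_dvd_pow_iff_le_right (by norm_num)).1 h1
    have := Nat.le_of_dvd (by omega) hk2m
    omega
  rw [hNc] at hN
  rcases hr.1.dvd_mul.1 hN with h | h
  · exact ne_two_of_dvd (by omega) hr.2.1
      ((Nat.prime_dvd_prime_iff_eq hr.1 Nat.prime_two).1 (hr.1.dvd_of_dvd_pow h))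
  rcases hr.1.dvd_mul.1 h with h | h
  · exact hkm (Nat.dvd_antisymm hk2m (prim_dvd (by omega) hr h))
  · have h2 := hk2m.trans (prim_dvd (by omega) hr h)
    have := Nat.le_of_dvd (by omega) h2
    omega

theorem eq_of_two_pow {n : ℕ} (hNc : Nat.card N = 2 ^ n * (2 ^ (2 * n) - 1)) (hn : 1 ≤ n) :
    n = m := by
  obtain ⟨r, hr⟩ := exists_isPPD_of_three_le (a := 2) (n := 2 * m) le_rfl (by omega) (by omega)
  have hr2 := ne_two_of_dvd (by omega) hr.2.1
  have hodd : Odd (2 ^ (2 * n) - 1) :=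
    Nat.Even.sub_odd Nat.one_le_two_pow (Nat.even_pow.2 ⟨even_two, by omega⟩) odd_one
  have hback : n = 2 ∨ n ≠ 3 → 3 ≤ 2 * n → 2 * n ∣ 2 * m := by
    intro h3 h2n
    obtain ⟨t, ht⟩ := exists_isPPD_of_three_le (a := 2) (n := 2 * n) le_rfl h2n (by omega)
    exact prim_dvd (by omega) ht (odd_prime_dvd hsh hm N ht.1 (ne_two_of_dvd (by omega) ht.2.1)
      (hNc ▸ ht.2.1.mul_left _))
  by_cases hN : r ∣ Nat.card N
  · rw [hNc] at hN
    rcases hr.1.dvd_mul.1 hN with h | h
    · exact absurd ((Nat.prime_dvd_prime_iff_eq hr.1 Nat.prime_two).1 (hr.1.dvd_of_dvd_pow h)) hr2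
    · have h1 := prim_dvd (by omega) hr h
      have := Nat.le_of_dvd (by omega) h1
      have h2 := hback (by omega) (by omega)
      have := Nat.dvd_antisymm h1 h2
      omega
  · obtain ⟨f, hf, hmf⟩ := le_of_not_dvd hsh hm N
      (hNc ▸ (dvd_pow_self 2 (by omega)).mul_right _) hr hN
    rw [hNc] at hf
    have h1 : 2 ^ f ∣ 2 ^ n :=
      Nat.Coprime.dvd_of_dvd_mul_right (Nat.Coprime.pow_left _ hodd.coprime_two_left) hf
    have := (Nat.pow_dvd_pow_iff_le_right (by norm_num)).1 h1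
    have := Nat.le_of_dvd (by omega) (hback (by omega) (by omega))
    omega

end

theorem not_suzuki_socle
    (hFT : ∀ (H : Type v) [Group H] [Finite H], Odd (Nat.card H) → Group.IsSolvable H)
    {m : ℕ} (hsh : Shape m K) (hm : 1 ≤ m) (N : Subgroup K) [N.Normal]
    (hns : ¬ Group.IsSolvable N) (hsz : Cfsg.IsSuzuki N) : False := by
  classical
  haveI : Fact (Nat.Prime 3) := ⟨Nat.prime_three⟩
  haveI : Fact (Nat.Prime 2) := ⟨Nat.prime_two⟩
  obtain ⟨hsimp, j, hj, hcard⟩ := hsz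
  haveI := hsimp
  have hmod : 2 ^ (2 * j + 1) % 3 = 2 := by
    rw [pow_succ, pow_mul, Nat.mul_mod, Nat.pow_mod]; simp
  have h3 : ¬ 3 ∣ Nat.card N := by
    rw [hcard]
    have hpos : 1 ≤ 2 ^ (2 * j + 1) := Nat.one_le_two_pow
    generalize 2 ^ (2 * j + 1) = q at hmod hpos
    intro hd
    rcases Nat.prime_three.dvd_mul.1 hd with hd | hd
    · rcases Nat.prime_three.dvd_mul.1 hd with hd | hd
      · have := Nat.prime_three.dvd_of_dvd_pow hd; omega
      · rw [Nat.dvd_iff_mod_eq_zero, Nat.add_mod, Nat.pow_mod, hmod] at hd; simp at hd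
    · omega
  have hNcit : InvCentTwo N := hsh.cit.of_injective N.subtype Subtype.val_injective
  have hO : Cfsg.pCore 2 N = ⊥ := by
    have hp := Constrained.isPGroup_pCore (p := 2) (G := N)
    rcases (inferInstance : (Cfsg.pCore 2 N).Normal).eq_bot_or_eq_top with e | e
    · exact e
    · exfalso
      rw [e] at hp
      haveI := (hp.of_equiv Subgroup.topEquiv).isNilpotent
      exact hns inferInstance
  obtain ⟨Fd, _, _, i, hi, hFi, ⟨e₀⟩⟩ := classify (G := N) hFT hNcit h3 hns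
  haveI : CharP Fd 2 := Suzuki.charP_two hFi
  let e : N ≃* Suzuki.grp (Suzuki.theta Fd i) :=
    (((QuotientGroup.quotientMulEquivOfEq hO).trans QuotientGroup.quotientBot).symm.trans e₀).trans
      ((Suzuki.lieSzEquiv hi hFi).symm.trans (MulEquiv.subgroupCongr (Suzuki.sz_eq (F := Fd) (m := i))))
  have hinv : ¬ 3 ∣ Nat.card {y : N // orderOf y = 2} := by
    rw [Nat.card_congr (e.toEquiv.subtypeEquiv (q := fun y => orderOf y = 2) fun y => by
      rw [MulEquiv.toEquiv_eq_coe, MulEquiv.coe_toEquiv, MulEquiv.orderOf_eq]),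
      Suzuki.card_order_two hi hFi, Nat.card_eq_fintype_card, hFi]
    have hmodi : 2 ^ (2 * i + 1) % 3 = 2 := by
      rw [pow_succ, pow_mul, Nat.mul_mod, Nat.pow_mod]; simp
    generalize 2 ^ (2 * i + 1) = q at hmodi
    intro hd
    rcases Nat.prime_three.dvd_mul.1 hd with hd | hd
    · rw [Nat.dvd_iff_mod_eq_zero, Nat.add_mod, Nat.pow_mod, hmodi] at hd; simp at hd
    · omega
  have h3K : 3 ∣ Nat.card K := (hsh.primes 3 Nat.prime_three (by norm_num)).2
    (three_dvd_of_even (even_two_mul m))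
  obtain ⟨x, hx⟩ := exists_prime_orderOf_dvd_card' (G := K) 3 h3K
  let X := Subgroup.zpowers x
  have hXp : IsPGroup 3 X := IsPGroup.of_card (n := 1) (by rw [Nat.card_zpowers, hx, pow_one])
  letI act : MulAction X {y : N // orderOf y = 2} :=
    { smul := fun g y => ⟨MulAut.conjNormal (g : K) y.1, by rw [MulEquiv.orderOf_eq, y.2]⟩
      one_smul := fun y => Subtype.ext (Subtype.ext (by
        show (MulAut.conjNormal ((1 : X) : K) y.1 : K) = _
        simp))
      mul_smul := fun g g' y => Subtype.ext (Subtype.ext (by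
        show (MulAut.conjNormal ((g * g' : X) : K) y.1 : K) =
          (MulAut.conjNormal (g : K) (MulAut.conjNormal (g' : K) y.1) : K)
        simp [MulAut.conjNormal_apply, mul_assoc])) }
  obtain ⟨y, hy⟩ := hXp.nonempty_fixed_point_of_prime_not_dvd_card _ hinv
  have h1 : x * (y.1 : K) * x⁻¹ = y.1 :=
    congrArg (fun z : {y : N // orderOf y = 2} => ((z.1 : N) : K)) (hy ⟨x, Subgroup.mem_zpowers x⟩)
  have h2 := hsh.cit.eq_one_of_commute Nat.prime_three (by norm_num) (k := 1) (a := 1)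
    (x := (y.1 : K)) (y := x) (by rw [Subgroup.orderOf_coe, y.2, pow_one])
    (fun e1 => by
      have h := y.2
      rw [← Subgroup.orderOf_coe, e1, orderOf_one] at h
      omega)
    (by rw [hx, pow_one]) (mul_inv_eq_iff_eq_mul.1 h1).symm
  rw [h2, orderOf_one] at hx
  omega

/-- The socle is `SL₂(2^m)`, so the group is. -/
theorem Shape.recognise
    (hFT : ∀ (H : Type v) [Group H] [Finite H], Odd (Nat.card H) → Group.IsSolvable H)
    (hlist : SimpleCITList.{v}) {m : ℕ} (hsh : Shape m K) (hm : 4 ≤ m)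
    {F : Type*} [Field F] [Fintype F] (hF : Fintype.card F = 2 ^ m) :
    Nonempty (K ≃* Matrix.ProjectiveSpecialLinearGroup (Fin 2) F) := by
  classical
  obtain ⟨N, hNn, hsimp, hab, -⟩ :=
    exists_simple_normal hsh.cit (fun H hH => hFT H hH) hsh.pcore hsh.notSolv
  haveI := hNn
  haveI := hsimp
  have hns : ¬ Group.IsSolvable N := fun hs => by
    obtain ⟨a, b, hne⟩ := hab
    exact hne ((IsSimpleGroup.comm_iff_isSolvable.2 hs) a b)
  rcases hlist N hab (hsh.cit.of_injective N.subtype Subtype.val_injective) with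
    ⟨E, _, _, hE, ⟨e⟩⟩ | ⟨E, _, _, hE, ⟨e⟩⟩ | hsz
  rotate_left
  · exfalso
    have hc : Nat.card N = 2 ^ 6 * 315 := by
      rw [Nat.card_congr e.toEquiv, CfsgLib.PSL34.card_PSL hE]
      norm_num
    refine false_of_small hsh hm N (by norm_num) (by decide) hc (by norm_num) fun p hp hd => ?_
    rw [show 315 = 3 ^ 2 * (5 * 7) by norm_num] at hd
    rcases hp.dvd_mul.1 hd with h | h
    · rw [(Nat.prime_dvd_prime_iff_eq hp Nat.prime_three).1 (hp.dvd_of_dvd_pow h)]; norm_num
    rcases hp.dvd_mul.1 h with h | h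
    · rw [(Nat.prime_dvd_prime_iff_eq hp (by norm_num)).1 h]; norm_num
    · rw [(Nat.prime_dvd_prime_iff_eq hp (by norm_num)).1 h]; norm_num
  · exact (not_suzuki_socle hFT hsh (by omega) N hns hsz).elim
  have hcard := CfsgLib.Classical.Linear.card_psl_two (F := E)
  rw [← Nat.card_congr e.toEquiv] at hcard
  rcases hE with h9 | ⟨n, hn⟩ | ⟨hp, k, hk⟩
  · exfalso
    rw [h9] at hcard
    norm_num at hcard
    refine false_of_small hsh hm N (e := 3) (c := 45) (by norm_num) (by decide) (by omega)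
      (by norm_num) fun p hp hd => ?_
    rw [show 45 = 3 ^ 2 * 5 by norm_num] at hd
    rcases hp.dvd_mul.1 hd with h | h
    · rw [(Nat.prime_dvd_prime_iff_eq hp Nat.prime_three).1 (hp.dvd_of_dvd_pow h)]; norm_num
    · rw [(Nat.prime_dvd_prime_iff_eq hp (by norm_num)).1 h]; norm_num
  · have hn1 : 1 ≤ n := by
      by_contra h0
      obtain rfl : n = 0 := by omega
      have := Fintype.one_lt_card (α := E)
      omega
    haveI : CharP E 2 := by
      haveI : Fact (Nat.Prime 2) := ⟨Nat.prime_two⟩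
      exact charP_of_card_eq_prime_pow hn
    have hNc : Nat.card N = 2 ^ n * (2 ^ (2 * n) - 1) := by
      rw [Nat.card_congr e.toEquiv, card_psl_even hn1 hn]
    obtain rfl := eq_of_two_pow hsh hm N hNc hn1
    obtain ⟨f⟩ := nonempty_sl_equiv_psl (F := E)
    have htop : N = ⊤ := eq_top_of_sl_two hsh.cit N (e.trans f.symm) (by
      rw [hn]
      exact (Nat.pow_le_pow_right two_pos (by omega) : 2 ^ 3 ≤ 2 ^ n))
    obtain ⟨i⟩ := CfsgLib.Dickson.psl_congr
      (FiniteField.ringEquivOfCardEq (K := E) (K' := F) (by rw [hn, hF]))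
    exact ⟨((Subgroup.topEquiv.symm.trans (MulEquiv.subgroupCongr htop.symm)).trans e).trans i⟩
  · exfalso
    set p := Fintype.card E with hpdef
    have hp3 : 3 ≤ p := by
      rcases hk with hk | hk
      · rcases Nat.eq_zero_or_pos k with rfl | hk0
        · have := hp.two_le
          have : p = 2 := by simpa using hk
          exfalso
          rw [this] at hcard
          norm_num at hcard
          exact false_of_small hsh hm N (e := 1) (c := 3) (by norm_num) (by decide) (by omega)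
            (by norm_num) fun q hq hd => by
              rw [(Nat.prime_dvd_prime_iff_eq hq Nat.prime_three).1 hd]; norm_num
        · have : 2 ≤ 2 ^ k := Nat.le_self_pow (by omega) 2
          omega
      · have := hp.two_le
        by_contra h
        have h2 : p = 2 := by omega
        rw [h2] at hk
        rcases k with _ | k
        · norm_num at hk
        · rw [pow_succ] at hk; omega
    have hpodd : p % 2 = 1 := (hp.eq_two_or_odd).resolve_left (by omega)
    rw [show Nat.gcd 2 (p - 1) = 2 from Nat.gcd_eq_left (by omega)] at hcard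
    by_cases hp3' : p = 3
    · rw [hp3'] at hcard
      norm_num at hcard
      exact false_of_small hsh hm N (e := 2) (c := 3) (by norm_num) (by decide) (by omega)
        (by norm_num) fun q hq hd => by
          rw [(Nat.prime_dvd_prime_iff_eq hq Nat.prime_three).1 hd]; norm_num
    rcases hk with hk | hk
    · have hk2 : 2 ≤ k := by
        rcases k with _ | _ | k
        · norm_num at hk; omega
        · norm_num at hk; omega
        · omega
      refine false_of_fermat hsh hm N (k := k) (hk ▸ hp) hk2 ?_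
      refine Nat.eq_of_mul_eq_mul_left two_pos (hcard.trans ?_)
      obtain ⟨j, rfl⟩ := Nat.exists_eq_add_of_le' (show 1 ≤ k by omega)
      rw [hk, Nat.add_sub_cancel,
        show (2 ^ (j + 1) + 1) ^ 2 - 1 = 2 ^ (j + 1) * (2 ^ (j + 1) + 2) by
          rw [show (2 ^ (j + 1) + 1) ^ 2 = 2 ^ (j + 1) * (2 ^ (j + 1) + 2) + 1 by ring,
            Nat.add_sub_cancel]]
      ring
    · have hk3 : 3 ≤ k := by
        rcases k with _ | _ | _ | k
        · norm_num at hk; omega
        · norm_num at hk; omega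
        · norm_num at hk; omega
        · omega
      have hpk : 2 ^ k - 1 = p := by omega
      refine false_of_mersenne hsh hm N (k := k) (hpk ▸ hp) hk3 ?_
      refine Nat.eq_of_mul_eq_mul_left two_pos (hcard.trans ?_)
      obtain ⟨j, rfl⟩ := Nat.exists_eq_add_of_le' (show 1 ≤ k by omega)
      rw [hpk, Nat.add_sub_cancel]
      obtain ⟨a, ha⟩ := Nat.exists_eq_add_of_le' (Nat.one_le_two_pow (n := j))
      have h1 : p = 2 * a + 1 := by rw [pow_succ] at hk; omega
      rw [show p ^ 2 - 1 = (2 * a) * (2 * a + 2) by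
        rw [h1, show (2 * a + 1) ^ 2 = 2 * a * (2 * a + 2) + 1 by ring, Nat.add_sub_cancel],
        pow_succ, ha, Nat.add_sub_cancel]
      ring

/-- The recognition, given the list of simple groups with 2-group involution centralisers. -/
theorem recognition
    (hFT : ∀ (H : Type v) [Group H] [Finite H], Odd (Nat.card H) → Group.IsSolvable H)
    (hlist : SimpleCITList.{v}) {F : Type*} [Field F] [Fintype F] {m : ℕ} (hm : 4 ≤ m)
    (hF : Fintype.card F = 2 ^ m) {G : Type v} [Group G] [Finite G]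
    (hp : ∀ r : ℕ, r.Prime →
      (r ∣ Nat.card (Matrix.ProjectiveSpecialLinearGroup (Fin 2) F) ↔ r ∣ Nat.card G))
    (ho : ∀ r s : ℕ, r.Prime → s.Prime → r ≠ s →
      ((∃ x : Matrix.ProjectiveSpecialLinearGroup (Fin 2) F, orderOf x = r * s) ↔
        (∃ y : G, orderOf y = r * s))) :
    Nonempty (G ⧸ Cfsg.pCore 2 G ≃* Matrix.ProjectiveSpecialLinearGroup (Fin 2) F) := by
  classical
  haveI : Fact (Nat.Prime 2) := ⟨Nat.prime_two⟩
  haveI : CharP F 2 := charP_of_card_eq_prime_pow hF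
  have hm1 : 1 ≤ m := by omega
  have hpos : 1 ≤ 2 ^ m := Nat.one_le_two_pow
  have heven : 2 ∣ 2 ^ m := dvd_pow_self 2 (by omega)
  have hprimes : ∀ r : ℕ, r.Prime → r ≠ 2 → (r ∣ Nat.card G ↔ r ∣ 2 ^ (2 * m) - 1) := by
    intro r hr hr2
    rw [← hp r hr, card_psl_even hm1 hF, hr.dvd_mul, or_iff_right]
    exact fun h => hr2 ((Nat.prime_dvd_prime_iff_eq hr Nat.prime_two).1 (hr.dvd_of_dvd_pow h))
  have ho' : ∀ r s : ℕ, r.Prime → s.Prime → r ≠ s →
      (∀ x : Matrix.ProjectiveSpecialLinearGroup (Fin 2) F, orderOf x ≠ r * s) →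
      ∀ y : G, orderOf y ≠ r * s := fun r s hr hs hrs hno y hy => by
    obtain ⟨x, hx⟩ := (ho r s hr hs hrs).2 ⟨y, hy⟩
    exact hno x hx
  have hsplit : ∀ r s : ℕ, r.Prime → s.Prime → r ∣ 2 ^ m - 1 → s ∣ 2 ^ m + 1 →
      ∀ y : G, orderOf y ≠ r * s := by
    intro r s hr hs hrd hsd
    refine ho' r s hr hs (fun e => ?_) (no_orderOf_split_psl hm1 hF hr hs hrd hsd)
    subst e
    have h3 := Nat.dvd_sub hsd hrd
    rw [show 2 ^ m + 1 - (2 ^ m - 1) = 2 by omega] at h3
    obtain rfl := (Nat.prime_dvd_prime_iff_eq hr Nat.prime_two).1 h3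
    omega
  -- involution centralisers are 2-groups
  have hcit : InvCentTwo G := by
    intro t ht
    rw [IsPGroup.iff_orderOf]
    rintro ⟨c, hc⟩
    rw [Subgroup.orderOf_mk]
    obtain ⟨i, d, hd, hcd⟩ := Nat.exists_eq_two_pow_mul_odd (orderOf_pos c).ne'
    rcases eq_or_ne d 1 with rfl | hd1
    · exact ⟨i, by rw [hcd, mul_one]⟩
    obtain ⟨r, hr, hrd⟩ := Nat.exists_prime_and_dvd hd1
    have hr2 : r ≠ 2 := fun e2 => Nat.not_even_iff_odd.2 hd (even_iff_two_dvd.2 (e2 ▸ hrd))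
    exfalso
    have hy : orderOf (c ^ (orderOf c / r)) = r :=
      orderOf_pow_orderOf_div (orderOf_pos c).ne' (hcd ▸ hrd.mul_left _)
    refine ho' 2 r Nat.prime_two hr hr2.symm (no_orderOf_two_mul_psl hm1 hF hr hr2)
      (t * c ^ (orderOf c / r)) ?_
    rw [Commute.orderOf_mul_eq_mul_orderOf_of_coprime
      ((show Commute t c from (Subgroup.mem_centralizer_singleton_iff.1 hc).symm).pow_right _)
      (by rw [ht, hy]; exact (Nat.coprime_primes Nat.prime_two hr).2 hr2.symm), ht, hy]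
  -- three primes which are pairwise not joined
  have hns : ¬ Group.IsSolvable G := fun hsol => by
    haveI := hsol
    have h16 : 2 ^ 4 ≤ 2 ^ m := Nat.pow_le_pow_right two_pos hm
    obtain ⟨r, hr, hrd⟩ := Nat.exists_prime_and_dvd (show 2 ^ m - 1 ≠ 1 by omega)
    obtain ⟨s, hs, hsd⟩ := Nat.exists_prime_and_dvd (show 2 ^ m + 1 ≠ 1 by omega)
    have hr2 : r ≠ 2 := ne_two_of_dvd (by omega) hrd
    have hs2 : s ≠ 2 := fun e => by subst e; omega
    have hrs : r ≠ s := fun e => by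
      subst e
      have h3 := Nat.dvd_sub hsd hrd
      rw [show 2 ^ m + 1 - (2 ^ m - 1) = 2 by omega] at h3
      exact hr2 ((Nat.prime_dvd_prime_iff_eq hr Nat.prime_two).1 h3)
    have h2G : 2 ∣ Nat.card G := (hp 2 Nat.prime_two).1 (by
      rw [card_psl_even hm1 hF]; exact heven.mul_right _)
    have hrG : r ∣ Nat.card G := (hprimes r hr hr2).2 (hrd.trans (by
      rw [mul_comm 2 m, pow_mul]
      simpa using Nat.sub_dvd_pow_sub_pow (2 ^ m) 1 2))
    have hsG : s ∣ Nat.card G := (hprimes s hs hs2).2 (dvd_pow_two_mul_sub_one hsd)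
    obtain ⟨x, hx | hx | hx⟩ := PrimeGraph.exists_adjacent_of_isSolvable Nat.prime_two hr hs
      hr2.symm hs2.symm hrs h2G hrG hsG
    · exact ho' 2 r Nat.prime_two hr hr2.symm (no_orderOf_two_mul_psl hm1 hF hr hr2) x hx
    · exact ho' 2 s Nat.prime_two hs hs2.symm (no_orderOf_two_mul_psl hm1 hF hs hs2) x hx
    · exact hsplit r s hr hs hrd hsd x hx
  set O := Cfsg.pCore 2 G with hO
  have hOp : IsPGroup 2 O := Constrained.isPGroup_pCore
  refine (Shape.recognise hFT hlist (K := G ⧸ O) (m := m) ⟨?_, ?_, ?_, ?_, ?_⟩ hm hF)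
  · exact hcit.of_surjective (QuotientGroup.mk' O) (QuotientGroup.mk'_surjective O)
      (by rw [QuotientGroup.ker_mk']; exact hOp)
  · exact Constrained.pCore_quotient_pCore
  · intro hs
    haveI := hs
    haveI := hOp.isNilpotent
    exact hns (Group.isSolvable_of_ker_le_range O.subtype (QuotientGroup.mk' O)
      (by rw [QuotientGroup.ker_mk', Subgroup.range_subtype]))
  · intro p hp0 hp2
    rw [← hprimes p hp0 hp2]
    refine ⟨fun hd => hd.trans (Subgroup.card_quotient_dvd_card _), fun hd => ?_⟩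
    rw [Subgroup.card_eq_card_quotient_mul_card_subgroup O] at hd
    refine (hp0.dvd_mul.1 hd).resolve_right fun hd' => ?_
    obtain ⟨i, hi⟩ := IsPGroup.iff_card.1 hOp
    exact hp2 ((Nat.prime_dvd_prime_iff_eq hp0 Nat.prime_two).1 (hp0.dvd_of_dvd_pow (hi ▸ hd')))
  · intro r s hr hs hrd hsd y hy
    obtain ⟨z, hz⟩ := PrimeGraph.exists_orderOf_eq_of_surjective (f := QuotientGroup.mk' O)
      (QuotientGroup.mk'_surjective O) ⟨y, hy⟩
    exact hsplit r s hr hs hrd hsd z hz

end CfsgLib.PrimeGraphPSLTwo
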